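import Cfsg.Agent.H2.Loc
import Cfsg.Agent.H8.Few3

/-! Rank three permutation characters `1 + χ + ψ` of degrees `1, 2p - 1, p`. -/

set_option autoImplicit false
set_option linter.unusedVariables false
set_option linter.unusedSectionVars false

namespace N3

open Cfsg Subgroup H8 H2 MulAction
open scoped ComplexConjugate Classical

universe u v

theorem num3 {p m s k₁ k₂ r : ℤ} (hp : 0 < p) (h1 : k₁ = s + p * m) (h2 : 1 + k₁ + k₂ = 3 * p)
    (h3 : r = -(m + 2 * s)) (p1 : 0 < k₁) (p2 : 0 < k₂) (m0 : 0 ≤ m) (m3 : m ≤ 3)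
    (h : r ^ 2 * k₂ + (1 + r) ^ 2 * k₁ = 2 * k₁ * k₂) :
    (m = 1 ∧ 2 * p = 6 * s ^ 2 + 3 * s + 1) ∨ (m = 2 ∧ 2 * p = 6 * s ^ 2 + 9 * s + 4) := by
  obtain rfl : k₂ = 3 * p - 1 - k₁ := by omega
  subst h1 h3
  have e : (2 * p - 1) * (m ^ 2 + 6 * m * s + 6 * s ^ 2 - 3 * s - p * m * (3 - m)) = 0 := by
    linear_combination h
  have e2 := (mul_eq_zero.1 e).resolve_left (by omega)
  interval_cases m
  · have : s * (2 * s - 1) = 0 := by linarith
    rcases mul_eq_zero.1 this with h | h <;> omega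
  · exact Or.inl ⟨rfl, by linarith⟩
  · exact Or.inr ⟨rfl, by linarith⟩
  · have : (s + 1) * (2 * s + 3) = 0 := by linarith
    rcases mul_eq_zero.1 this with h | h <;> omega

variable {G : Type u} [Group G] [Fintype G] {Ω : Type v} [Fintype Ω] [MulAction G Ω]

/-- the number of fixed points -/
noncomputable abbrev fx (Ω : Type v) [MulAction G Ω] (g : G) : ℕ := Nat.card (fixedBy Ω g)

/-- the permutation character -/
noncomputable def pc (Ω : Type v) [MulAction G Ω] (g : G) : ℂ := fx Ω g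

theorem pc_char : IsCharacter G (pc Ω) := char_perm Ω

/-- an invariant relation -/
def Inv (G : Type u) [Group G] [MulAction G Ω] (R : Ω → Ω → Prop) : Prop :=
  ∀ (g : G) a b, R a b → R (g • a) (g • b)

theorem Inv.iff {R : Ω → Ω → Prop} (h : Inv G R) (g : G) (a b : Ω) : R (g • a) (g • b) ↔ R a b :=
  ⟨fun e => by simpa using h g⁻¹ _ _ e, h g a b⟩

/-- the orbital counting function -/
noncomputable def cnt (R : Ω → Ω → Prop) (g : G) : ℕ := Nat.card {ω // R ω (g • ω)}

theorem cnt_eq (R : Ω → Ω → Prop) (g : G) : (cnt R g : ℂ) = ∑ ω, if R ω (g • ω) then 1 else 0 := by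
  rw [cnt, Nat.card_eq_fintype_card, Fintype.card_subtype, Finset.sum_boole]

theorem cnt_Eq (g : G) : (cnt (Ω := Ω) Eq g : ℂ) = pc Ω g := by
  rw [cnt, pc]
  exact congrArg _ (Nat.card_congr (Equiv.subtypeEquivRight fun _ => eq_comm))

theorem cnt_cf {R : Ω → Ω → Prop} (h : Inv G R) : IsClassFunction G fun g => (cnt R g : ℂ) := by
  intro g y
  simp only [cnt_eq]
  rw [← Equiv.sum_comp (MulAction.toPerm y)]
  refine Finset.sum_congr rfl fun ω _ => ?_
  simp only [toPerm_apply, mul_smul, inv_smul_smul, h.iff]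

/-- sums over cosets of the stabilizer -/
noncomputable def F (α : Ω) (φ : G → ℂ) (ω : Ω) : ℂ := ∑ g, if g • α = ω then φ g else 0

variable {α : Ω} {φ : G → ℂ}

theorem F_conj (hφ : IsClassFunction G φ) {h : G} (hh : h • α = α) (ω : Ω) :
    F α φ (h • ω) = F α φ ω := by
  rw [F, F, ← Equiv.sum_comp (MulAut.conj h).toEquiv]
  refine Finset.sum_congr rfl fun g _ => ?_
  have : h⁻¹ • α = α := by rw [inv_smul_eq_iff, hh]
  simp only [MulEquiv.toEquiv_eq_coe, EquivLike.coe_coe, MulAut.conj_apply, mul_smul, this,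
    smul_left_cancel_iff, hφ g h]

theorem F_shift (y : G) : F α φ (y • α) = ∑ h, if h • α = α then φ (y * h) else 0 := by
  rw [F, ← Equiv.sum_comp (Equiv.mulLeft y)]
  simp only [Equiv.coe_mulLeft, mul_smul, smul_left_cancel_iff]

theorem sum_F (T : Ω → Prop) :
    ∑ ω, (if T ω then F α φ ω else 0) = ∑ g, if T (g • α) then φ g else 0 := by
  have : ∀ ω, (if T ω then F α φ ω else 0) =
      ∑ g, if g • α = ω then (if T (g • α) then φ g else 0) else 0 := fun ω => by
    split_ifs with h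
    · exact Finset.sum_congr rfl fun g _ => by split_ifs with a b <;> simp_all
    · exact (Finset.sum_eq_zero fun g _ => by split_ifs with a b <;> simp_all).symm
  simp only [this]
  rw [Finset.sum_comm]
  simp

theorem sum_cnt [IsPretransitive G Ω] {R : Ω → Ω → Prop} (h : Inv G R)
    (hφ : IsClassFunction G φ) (α : Ω) : ∑ g, (cnt R g : ℂ) * φ g =
      Fintype.card Ω * ∑ ω, if R α ω then F α φ ω else 0 := by
  rw [sum_F]
  simp only [cnt_eq, Finset.sum_mul]
  rw [Finset.sum_comm, ← nsmul_eq_mul, ← Finset.card_univ, ← Finset.sum_const]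
  refine Finset.sum_congr rfl fun ω _ => ?_
  obtain ⟨y, rfl⟩ := exists_smul_eq G α ω
  rw [← Equiv.sum_comp (MulAut.conj y).toEquiv]
  refine Finset.sum_congr rfl fun g _ => ?_
  simp only [MulEquiv.toEquiv_eq_coe, EquivLike.coe_coe, MulAut.conj_apply, mul_smul,
    inv_smul_smul, h.iff, hφ g y, ite_mul, one_mul, zero_mul]

theorem conj_F (ω : Ω) : conj (F α φ ω) = F α (fun g => conj (φ g)) ω := by
  simp only [F, map_sum, apply_ite conj, map_zero]

theorem inner_cnt [IsPretransitive G Ω] {R : Ω → Ω → Prop} (h : Inv G R)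
    (hφ : IsClassFunction G φ) (α : Ω) : classInner (fun g => (cnt R g : ℂ)) φ =
      Fintype.card Ω / Nat.card G * conj (∑ ω, if R α ω then F α φ ω else 0) := by
  rw [classInner, sum_cnt h (φ := fun g => conj (φ g)) (fun g y => by simp only [hφ g y]) α]
  simp only [map_sum, apply_ite conj, map_zero, conj_F]
  ring

theorem inner_pc [IsPretransitive G Ω] (hφ : IsClassFunction G φ) (α : Ω) :
    classInner (pc Ω) φ = Fintype.card Ω / Nat.card G * conj (F α φ α) := by
  have := inner_cnt (R := Eq) (fun g a b e => by rw [e]) hφ α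
  simp only [cnt_Eq, Finset.sum_ite_eq, Finset.mem_univ, if_true] at this
  exact this

theorem F_sq (hφ : IsIrrCharacter G φ) :
    ∑ ω, F α φ ω * conj (F α φ ω) = Nat.card G / φ 1 * F α φ α := by
  have e : ∀ ω, F α φ ω * conj (F α φ ω) =
      ∑ g, if g • α = ω then F α φ (g • α) * φ g⁻¹ else 0 := fun ω => by
    rw [conj_F, F.eq_def α (fun g => conj (φ g)), Finset.mul_sum]
    refine Finset.sum_congr rfl fun g _ => ?_
    split_ifs with h
    · rw [h, char_conj_eq (irr_isCharacter hφ)]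
    · simp
  simp only [e]
  rw [Finset.sum_comm]
  simp only [Finset.sum_ite_eq, Finset.mem_univ, if_true, F_shift, Finset.sum_mul]
  rw [Finset.sum_comm, F, Finset.mul_sum]
  refine Finset.sum_congr rfl fun h _ => ?_
  split_ifs with a
  · rw [← irr_sum_inv_mul_apply_mul hφ h]
    exact Finset.sum_congr rfl fun g _ => mul_comm _ _
  · simp

theorem F_eq_zero [IsPretransitive G Ω] (hφ : IsIrrCharacter G φ) (h : classInner (pc Ω) φ = 0)
    (ω : Ω) : F α φ ω = 0 := by
  have h1 : (Fintype.card Ω : ℂ) ≠ 0 := by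
    have : Nonempty Ω := ⟨α⟩
    exact_mod_cast Fintype.card_ne_zero
  rw [inner_pc (char_isClassFunction (irr_isCharacter hφ)) α, mul_eq_zero,
    or_iff_right (div_ne_zero h1 card_ne_zero_complex), map_eq_zero] at h
  have h2 := F_sq (α := α) hφ
  simp only [h, mul_zero, Complex.mul_conj, ← Complex.ofReal_sum, Complex.ofReal_eq_zero] at h2
  exact Complex.normSq_eq_zero.1 ((Finset.sum_eq_zero_iff_of_nonneg fun _ _ =>
    Complex.normSq_nonneg _).1 h2 ω (Finset.mem_univ _))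

theorem F_one [IsPretransitive G Ω] (ω : Ω) :
    (Fintype.card Ω / Nat.card G : ℂ) * F α (1 : G → ℂ) ω = 1 := by
  have key : ∀ ω, F α (1 : G → ℂ) ω = F α (1 : G → ℂ) α := fun ω => by
    obtain ⟨y, rfl⟩ := exists_smul_eq G α ω
    rw [F_shift]; rfl
  have h1 := sum_F (α := α) (φ := (1 : G → ℂ)) fun _ => True
  simp only [if_true, key, Finset.sum_const, Finset.card_univ, nsmul_eq_mul, Pi.one_apply,
    mul_one, ← Nat.card_eq_fintype_card (α := G)] at h1
  rw [key, div_mul_eq_mul_div, h1, div_self card_ne_zero_complex]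

theorem inner_pc_one [IsPretransitive G Ω] [Nonempty Ω] : classInner (pc Ω) (1 : G → ℂ) = 1 := by
  obtain ⟨α⟩ := ‹Nonempty Ω›
  rw [inner_pc (char_isClassFunction char_one) α]
  simpa using congrArg conj (F_one (G := G) (α := α) α)

theorem card_orbits [IsPretransitive G Ω] (α : Ω) : classInner (pc Ω) (pc Ω : G → ℂ) =
    Fintype.card (Quotient (orbitRel (stabilizer G α) Ω)) := by
  have h1 := sum_card_fixedBy_eq_card_orbits_mul_card_group (stabilizer G α) Ω
  have e : ∀ f : G → ℂ, F α f α = ∑ h : stabilizer G α, f h := fun f => by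
    rw [F, ← Finset.sum_filter, Finset.sum_subtype (p := (· ∈ stabilizer G α))]
    simp
  have h2 := F_one (G := G) (α := α) α
  have h3 : F α (pc Ω : G → ℂ) α = (Fintype.card (Quotient (orbitRel (stabilizer G α) Ω)) *
      Fintype.card (stabilizer G α) : ℕ) := by
    rw [e, ← h1, Nat.cast_sum]
    exact Finset.sum_congr rfl fun h _ => by rw [pc, fx, Nat.card_eq_fintype_card]; rfl
  rw [e] at h2
  simp only [Pi.one_apply, Finset.sum_const, Finset.card_univ, nsmul_eq_mul, mul_one] at h2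
  rw [inner_pc (char_isClassFunction pc_char) α, h3, map_natCast]
  push_cast
  linear_combination (Fintype.card (Quotient (orbitRel (stabilizer G α) Ω)) : ℂ) * h2

theorem exists_three [IsPretransitive G Ω] (α : Ω) (h : classInner (pc Ω) (pc Ω : G → ℂ) = 3) :
    ∃ (β γ : Ω) (R : Ω → Ω → Prop) (k₁ k₂ : ℕ), Inv G R ∧ (∀ a, ¬ R a a) ∧ 0 < k₁ ∧ 0 < k₂ ∧
      ∀ f : Ω → ℂ, (∀ g : G, g • α = α → ∀ ω, f (g • ω) = f ω) →
        ∑ ω, f ω = f α + k₁ * f β + k₂ * f γ ∧ ∑ ω, (if R α ω then f ω else 0) = k₁ * f β := by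
  rw [card_orbits α] at h
  have h3 : Fintype.card (Quotient (orbitRel (stabilizer G α) Ω)) = 3 := by exact_mod_cast h
  set s := orbitRel (stabilizer G α) Ω
  have h2 : (Finset.univ.erase (Quotient.mk s α)).card = 2 := by
    rw [Finset.card_erase_of_mem (Finset.mem_univ _), Finset.card_univ, h3]
  obtain ⟨⟨β⟩, ⟨γ⟩, ne, e⟩ := Finset.card_eq_two.1 h2
  change Quotient.mk s β ≠ Quotient.mk s γ at ne
  change _ = {Quotient.mk s β, Quotient.mk s γ} at e
  have rel : ∀ a b, Quotient.mk s a = Quotient.mk s b ↔ ∃ g : G, g • α = α ∧ g • b = a :=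
    fun a b => by
      rw [Quotient.eq, orbitRel_apply]
      exact ⟨fun ⟨g, hg⟩ => ⟨g, g.2, hg⟩, fun ⟨g, h1, h2⟩ => ⟨⟨g, h1⟩, h2⟩⟩
  have ra : ∀ a, Quotient.mk s a = Quotient.mk s α ↔ a = α := fun a =>
    ⟨fun h => by obtain ⟨g, h1, h2⟩ := (rel _ _).1 h; rw [← h2, h1], fun h => by rw [h]⟩
  have mem : ∀ q, q ≠ Quotient.mk s α ↔ q = Quotient.mk s β ∨ q = Quotient.mk s γ := fun q => by
    simpa using Finset.ext_iff.1 e q
  have nb := (mem _).2 (Or.inl rfl)
  have nc := (mem _).2 (Or.inr rfl)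
  have cst : ∀ (δ : Ω) (f : Ω → ℂ), (∀ g : G, g • α = α → ∀ ω, f (g • ω) = f ω) →
      ∑ ω, (if Quotient.mk s ω = Quotient.mk s δ then f ω else 0) =
        (Finset.univ.filter fun ω => Quotient.mk s ω = Quotient.mk s δ).card * f δ :=
    fun δ f hf => by
      rw [← Finset.sum_filter, ← nsmul_eq_mul, ← Finset.sum_const]
      refine Finset.sum_congr rfl fun ω hω => ?_
      obtain ⟨g, h1, rfl⟩ := (rel _ _).1 (Finset.mem_filter.1 hω).2
      exact hf g h1 δ
  refine ⟨β, γ, fun a b => ∃ g : G, g • α = a ∧ g • β = b, _, _, ?_, ?_,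
    Finset.card_pos.2 ⟨β, (Finset.mem_filter (p := fun ω => Quotient.mk s ω =
      Quotient.mk s β)).2 ⟨Finset.mem_univ _, rfl⟩⟩,
    Finset.card_pos.2 ⟨γ, (Finset.mem_filter (p := fun ω => Quotient.mk s ω =
      Quotient.mk s γ)).2 ⟨Finset.mem_univ _, rfl⟩⟩, fun f hf => ⟨?_, ?_⟩⟩
  · rintro g _ _ ⟨y, rfl, rfl⟩
    exact ⟨g * y, mul_smul _ _ _, mul_smul _ _ _⟩
  · rintro a ⟨g, h1, h2⟩
    exact nb (by rw [smul_left_cancel g (h2.trans h1.symm)])
  · rw [← cst β f hf, ← cst γ f hf, show f α = ∑ ω, if ω = α then f ω else 0 by simp,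
      ← Finset.sum_add_distrib, ← Finset.sum_add_distrib]
    refine Finset.sum_congr rfl fun ω _ => ?_
    by_cases a : ω = α
    · rw [a]; simp [nb.symm, nc.symm]
    · rcases (mem _).1 (mt (ra ω).1 a) with b | b <;> simp [a, b, ne, ne.symm]
  · rw [← cst β f hf]
    refine Finset.sum_congr rfl fun ω _ => ?_
    by_cases a : Quotient.mk s ω = Quotient.mk s β
    · rw [if_pos a, if_pos ((rel _ _).1 a)]
    · rw [if_neg a, if_neg (mt (rel _ _).2 a)]

theorem rank3 [IsPretransitive G Ω] {p : ℕ} (hp : 0 < p) (hΩ : Fintype.card Ω = 3 * p)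
    {χ ψ : IrrCharacter G} (h1 : χ ≠ one1 G) (h2 : ψ ≠ one1 G) (h3 : χ ≠ ψ)
    (hπ : pc Ω = (one1 G).1 + χ.1 + ψ.1) (dχ : deg χ + 1 = 2 * p) (dψ : deg ψ = p) {x : G}
    (vχ : χ.1 x = -1) (vψ : ψ.1 x = 0) (hx : ∀ R : Ω → Ω → Prop, Inv G R → p ∣ cnt R x) :
    ∃ (R : Ω → Ω → Prop) (m s : ℤ), Inv G R ∧ (∀ a, ¬ R a a) ∧
      ((m = 1 ∧ 2 * (p : ℤ) = 6 * s ^ 2 + 3 * s + 1) ∨
        (m = 2 ∧ 2 * (p : ℤ) = 6 * s ^ 2 + 9 * s + 4)) ∧
      ∀ g, (cnt R g : ℂ) = p * m + s * fx Ω g - (m + 3 * s) * ψ.1 g := by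
  obtain ⟨α⟩ : Nonempty Ω := Fintype.card_pos_iff.1 (by omega)
  have ip : ∀ a b : IrrCharacter G, classInner a.1 b.1 = if a = b then 1 else 0 := fun a b => by
    rw [irr_classInner a.2 b.2]; simp only [Subtype.ext_iff]
  have ipc : ∀ φ : IrrCharacter G, classInner (pc Ω) φ.1 = (if one1 G = φ then 1 else 0) +
      (if χ = φ then 1 else 0) + if ψ = φ then 1 else 0 := fun φ => by
    rw [hπ, classInner_add_left, classInner_add_left, ip, ip, ip]
  obtain ⟨β, γ, R, k₁, k₂, hR, irr, p1, p2, hs⟩ := exists_three (G := G) α (by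
    conv_lhs => arg 2; rw [hπ]
    rw [classInner_add_right, classInner_add_right, ipc, ipc, ipc]
    simp [h1, h2, h3, h1.symm, h2.symm, h3.symm]; norm_num)
  have cf : ∀ φ : IrrCharacter G, IsClassFunction G φ.1 := fun φ =>
    char_isClassFunction (irr_isCharacter φ.2)
  set l : ℂ := Fintype.card Ω / Nat.card G with hl
  have cl : conj l = l := by simp [hl]
  have inv : ∀ φ : IrrCharacter G, ∀ g : G, g • α = α → ∀ ω, F α φ.1 (g • ω) = F α φ.1 ω :=
    fun φ g hg ω => F_conj (cf φ) hg ω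
  have ic : ∀ φ : IrrCharacter G, classInner (fun g => (cnt R g : ℂ)) φ.1 =
      k₁ * conj (l * F α φ.1 β) := fun φ => by
    rw [inner_cnt hR (cf φ) α, (hs _ (inv φ)).2, map_mul, map_mul, cl, map_natCast]; ring
  obtain ⟨σ, hσ⟩ : ∃ σ, σ = k₁ * conj (l * F α χ.1 β) := ⟨_, rfl⟩
  obtain ⟨b, hb⟩ : ∃ b, b = l * F α ψ.1 β := ⟨_, rfl⟩
  obtain ⟨c, hc⟩ : ∃ c, c = l * F α ψ.1 γ := ⟨_, rfl⟩
  have ex : ∀ g, (cnt R g : ℂ) = k₁ + σ * χ.1 g + k₁ * conj b * ψ.1 g := fun g => by
    rw [classFun_apply_eq_sum (cnt_cf hR) g, sum_irr_list (l := [one1 G, χ, ψ])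
      (by simp [h1, h2, h3, h1.symm, h2.symm]) _ fun φ hφ => ?_]
    · simp only [List.map_cons, List.map_nil, List.sum_cons, List.sum_nil, ic, ← hσ, ← hb]
      rw [show l * F α (1 : G → ℂ) β = 1 from F_one β]
      simp [add_assoc]
    · simp only [List.mem_cons, List.not_mem_nil, or_false, not_or] at hφ
      rw [ic, F_eq_zero φ.2 (by rw [ipc]; simp [Ne.symm hφ.1, Ne.symm hφ.2.1, Ne.symm hφ.2.2])]
      simp
  have a1 : l * F α ψ.1 α = 1 := by
    have := congrArg conj ((inner_pc (cf ψ) α).symm.trans (ipc ψ))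
    rw [← hl] at this
    simpa [h2.symm, h3, cl] using this
  have s0 : (3 * p : ℂ) = 1 + k₁ + k₂ := by
    have := (hs (fun _ => 1) fun _ _ _ => rfl).1
    simpa [hΩ] using this
  have s1 : 1 + k₁ * b + k₂ * c = 0 := by
    have e1 := (hs _ (inv ψ)).1
    have e2 := sum_F (α := α) (φ := ψ.1) fun _ => True
    have e3 := ip ψ (one1 G)
    simp only [if_true] at e2
    simp only [classInner, Pi.one_apply, map_one, mul_one, if_neg h2, mul_eq_zero,
      inv_eq_zero, card_ne_zero_complex, false_or] at e3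
    rw [e2, e3] at e1
    rw [hb, hc, ← a1]
    linear_combination -l * e1
  have pc0 : (p : ℂ) ≠ 0 := by exact_mod_cast hp.ne'
  have s2 : 1 + k₁ * (b * conj b) + k₂ * (c * conj c) = 3 := by
    have e1 := (hs (fun ω => F α ψ.1 ω * conj (F α ψ.1 ω)) fun g hg ω => by
      simp only [inv ψ g hg]).1
    have e2 : l * (Nat.card G / ψ.1 1) = 3 := by
      rw [deg_eq, dψ, hl, hΩ]
      have := card_ne_zero_complex (G := G)
      push_cast; field_simp
    have a2 : l * conj (F α ψ.1 α) = 1 := by simpa [cl] using congrArg conj a1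
    rw [F_sq ψ.2] at e1
    rw [hb, hc, map_mul, map_mul, cl]
    linear_combination -l * l * e1 + (l * F α ψ.1 α) * e2 + (3 - l * conj (F α ψ.1 α)) * a1 - a2
  obtain ⟨m, hm⟩ := hx R hR
  have m3 : m ≤ 3 := by
    have : cnt R x ≤ 3 * p := by
      rw [cnt, ← hΩ, Nat.card_eq_fintype_card]; exact Fintype.card_subtype_le _
    rw [hm, mul_comm] at this
    exact Nat.le_of_mul_le_mul_right this hp
  have e1 := ex x
  have e0 := ex 1
  have c0 : cnt R (1 : G) = 0 := by
    have : IsEmpty {ω // R ω ((1 : G) • ω)} := ⟨fun ω => irr ω.1 (by simpa using ω.2)⟩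
    exact Nat.card_of_isEmpty
  have d2 : (deg χ : ℂ) = 2 * p - 1 := by
    have : ((deg χ + 1 : ℕ) : ℂ) = (2 * p : ℕ) := by rw [dχ]
    push_cast at this; linear_combination this
  rw [hm, vχ, vψ] at e1
  rw [c0, deg_eq, deg_eq, d2, dψ] at e0
  push_cast at e0 e1
  have hs' : σ = (((k₁ : ℤ) - p * m : ℤ) : ℂ) := by push_cast; linear_combination e1
  set s : ℤ := (k₁ : ℤ) - p * m with hsd
  have hk : (k₁ : ℂ) = s + p * m := by rw [hsd]; push_cast; ring
  have hr : k₁ * conj b = -(m + 2 * s) := by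
    apply mul_right_cancel₀ pc0
    rw [hs'] at e0
    linear_combination -e0 - hk
  have hr' : k₁ * b = -(m + 2 * s) := by simpa [map_ofNat] using congrArg conj hr
  have hc' : k₂ * conj c = -(1 - (m + 2 * s)) := by
    have := congrArg conj s1
    simp only [map_add, map_mul, map_one, map_natCast, map_zero] at this
    linear_combination this - hr
  refine ⟨R, m, s, hR, irr, num3 (k₁ := k₁) (k₂ := k₂) (r := -(m + 2 * s)) (by omega) (by omega)
    (by exact_mod_cast s0.symm) rfl (by omega) (by omega) (by omega) (by omega) ?_, fun g => ?_⟩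
  · apply Int.cast_injective (α := ℂ)
    push_cast
    have hc'' : k₂ * c = -(1 - (m + 2 * s)) := by linear_combination s1 - hr'
    rw [← hr, show 1 + k₁ * conj b = -(k₂ * conj c) by rw [hr, hc']; ring]
    have q1 : (k₁ * conj b) ^ 2 = k₁ * b * (k₁ * conj b) := by rw [hr, hr']; ring
    have q2 : (-(k₂ * conj c)) ^ 2 = k₂ * c * (k₂ * conj c) := by rw [hc', hc'']; ring
    rw [q1, q2]
    linear_combination (k₁ * k₂ : ℂ) * s2
  · have := congrFun hπ g
    simp only [pc, Pi.add_apply, Pi.one_apply] at this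
    rw [ex, hr, hs', hk, this]
    push_cast; ring

end N3
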