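import Cfsg.Agent.N3.A
import Cfsg.Agent.H9.Tools6
import Cfsg.Agent.GW.L1

/-! Degree `3p`, Sylow normalizer of order `2p`: the principal `p`-block. -/

set_option autoImplicit false
set_option linter.unusedVariables false
set_option linter.unusedSectionVars false

namespace N3

open Cfsg Subgroup H8 H2 MulAction GW
open FT hiding Nx
open scoped ComplexConjugate Classical

universe u v

theorem z8 : ∀ s e : ZMod 8, (2 = 6 * s ^ 2 + 3 * s + 1 → 1 + s - (1 + 3 * s) * (1 + 2 * e) = 6) ∧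
    (2 = 6 * s ^ 2 + 9 * s + 4 → 2 + s - (2 + 3 * s) * (1 + 2 * e) = 4) := by decide

variable {G : Type u} [Group G] [Fintype G] {Ω : Type v} [Fintype Ω] [MulAction G Ω]

theorem fx_conj {a b : G} (h : IsConj a b) : fx Ω a = fx Ω b := by
  have := IsClassFunction_apply_of_isConj (char_isClassFunction (pc_char (G := G) (Ω := Ω))) h
  simp only [pc] at this
  exact_mod_cast this

theorem fx_one : fx Ω (1 : G) = Fintype.card Ω := by
  rw [fx, fixedBy_one_eq_univ, Nat.card_univ, Nat.card_eq_fintype_card]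

theorem card_stab [IsPretransitive G Ω] (ω : Ω) :
    Nat.card G = Nat.card (stabilizer G ω) * Fintype.card Ω := by
  rw [← Nat.card_eq_fintype_card, ← index_stabilizer_of_transitive G ω, card_mul_index]

/-- the rank three alternative -/
def R3 (G : Type u) [Group G] (Ω : Type v) [MulAction G Ω] (p : ℕ) : Prop :=
  p % 3 = 2 ∧ ∀ (w : G) (k : ℕ), w ^ 2 ^ k = 1 → fx Ω w = 1 → p % 8 = 1 →
    ∃ R : Ω → Ω → Prop, Inv G R ∧ (∀ a, ¬ R a a) ∧
      ((cnt R w : ZMod 8) = 4 ∨ (cnt R w : ZMod 8) = 6)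

/-- the hypotheses -/
structure Hy (Ω : Type v) [Fintype Ω] [MulAction G Ω] (p : ℕ) [Fact p.Prime] (x t : G) : Prop where
  d1 : DefOne p x
  V : d1.V = ⊥
  H : Nat.card d1.H = 2
  gt : 3 < p
  card : Fintype.card Ω = 3 * p
  t2 : orderOf t = 2
  tN : t ∈ Nx x
  tC : t ∉ Cx x
  inv : t * x * t⁻¹ = x⁻¹

variable {p : ℕ} [hp : Fact p.Prime] {x t : G} [IsPretransitive G Ω]

theorem exists_hy [IsSimpleGroup G] (hG : ¬ IsMulCommutative G) (hp3 : 3 < p)
    (hΩ : Fintype.card Ω = 3 * p) (P : Sylow p G)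
    (hN : Nat.card (normalizer ((P : Subgroup G) : Set G)) = 2 * p) : ∃ x t : G, Hy Ω p x t := by
  obtain ⟨ω⟩ : Nonempty Ω := Fintype.card_pos_iff.1 (by omega)
  have p2 : p.Coprime 2 := (Nat.coprime_primes hp.out Nat.prime_two).2 (by omega)
  have h1 : p ∣ Nat.card G := by rw [card_stab ω, hΩ, ← mul_assoc]; exact dvd_mul_left _ _
  have h2 : Nat.card (P : Subgroup G) = p := by
    have e := P.card_eq_multiplicity
    have h3 : Nat.card (P : Subgroup G) ∣ p * 2 := by
      rw [mul_comm, ← hN]; exact card_dvd_of_le le_normalizer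
    have h4 := (hp.out.dvd_iff_one_le_factorization Nat.card_pos.ne').1 h1
    rw [e] at h3 ⊢
    exact Nat.dvd_antisymm ((p2.pow_left _).dvd_of_dvd_mul_right h3) (dvd_pow_self _ (by omega))
  obtain ⟨x, hx⟩ := exists_prime_orderOf_dvd_card' (G := (P : Subgroup G)) p (by rw [h2])
  have ox : orderOf (x : G) = p := by rw [Subgroup.orderOf_coe, hx]
  have e : zpowers (x : G) = P := eq_of_le_of_card_ge (zpowers_le.2 x.2) (by
    rw [h2, Nat.card_zpowers, ox])
  have d1 : DefOne p (x : G) := ⟨ox, fun h => by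
    have h3 := P.not_dvd_index
    rw [← (P : Subgroup G).card_mul_index, h2, sq] at h
    exact h3 (Nat.dvd_of_mul_dvd_mul_left hp.out.pos h)⟩
  have hN' : Nat.card (Nx (x : G)) = 2 * p := by rw [Nx, e, hN]
  have h5 := d1.card_Nx
  have h6 := d1.one_lt_card_H (commutator_eq_top_of_simple hG)
  rw [hN', d1.card_Cx, mul_comm 2, mul_assoc] at h5
  have h7 := Nat.eq_of_mul_eq_mul_left hp.out.pos h5
  have h8 : 0 < Nat.card d1.V := Nat.card_pos
  have h9 : Nat.card d1.V = 1 := by nlinarith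
  obtain ⟨t, ht⟩ := exists_prime_orderOf_dvd_card' (G := Nx (x : G)) 2 (by
    rw [hN']; exact dvd_mul_right _ _)
  have ot : orderOf (t : G) = 2 := by rw [Subgroup.orderOf_coe, ht]
  have tC : (t : G) ∉ Cx (x : G) := fun h => by
    have := (Cx (x : G)).orderOf_dvd_natCard h
    rw [ot, d1.card_Cx, h9, mul_one] at this
    exact absurd (p2.symm.eq_one_of_dvd this) (by norm_num)
  refine ⟨x, t, d1, card_eq_one.1 h9, by rw [h9] at h7; omega, hp3, hΩ, ot, t.2, tC, ?_⟩
  have h10 : d1.nu t ^ 2 = 1 := by rw [← map_pow, ← ht, pow_orderOf_eq_one, map_one]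
  have h11 : ((d1.nu t : (ZMod p)ˣ) : ZMod p) ^ 2 = 1 := by
    rw [← Units.val_pow_eq_pow_val, h10, Units.val_one]
  rcases sq_eq_one_iff.1 h11 with h | h
  · exact absurd ((d1.nu_eq_one_iff t).1 (Units.ext h)) tC
  · rw [d1.nu_spec t, h, d1.xp_neg, xp_one]

namespace Hy

variable (h : Hy Ω p x t)
include h

theorem odd : Odd p := hp.out.odd_of_ne_two (by have := h.gt; omega)

theorem semi {y : G} (hy : y ∈ zpowers x) {ω : Ω} (e : y • ω = ω) : y = 1 := by
  by_contra h1
  obtain ⟨i, rfl⟩ := h.d1.mem_zpowers_iff.1 hy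
  have h2 := (stabilizer G ω).orderOf_dvd_natCard e
  rw [h.d1.orderOf_xp (mt h.d1.xp_eq_one_iff.2 h1)] at h2
  refine h.d1.not_sq ?_
  rw [card_stab ω, h.card, sq]
  exact mul_dvd_mul h2 (dvd_mul_left _ _)

theorem fx_xp {i : ZMod p} (hi : i ≠ 0) : fx Ω (xp x i) = 0 := by
  have : IsEmpty (fixedBy Ω (xp x i)) := ⟨fun ω => hi (h.d1.xp_eq_one_iff.1
    (h.semi (h.d1.mem_zpowers_iff.2 ⟨i, rfl⟩) ω.2))⟩
  exact Nat.card_of_isEmpty

theorem dvd_cnt (R : Ω → Ω → Prop) (hR : Inv G R) : p ∣ cnt R x := by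
  rw [← h.d1.card_zpowers]
  refine H9.dvd_card_of_semiregular _ _ (fun w hw a ha => ?_) fun a _ w hw e => h.semi hw e
  rw [← mul_smul, H9.comm_of_mem_zpowers (mem_zpowers x) hw, mul_smul]
  exact hR _ _ _ ha

theorem fx_odd {u : G} (hu : orderOf u = 2) : Odd (fx Ω u) := by
  have h1 := (two_zp hu).card_modEq_card_fixedPoints Ω
  have e : fixedPoints (zpowers u) Ω = fixedBy Ω u := by
    ext ω
    refine ⟨fun a => a ⟨u, mem_zpowers u⟩, fun a g => ?_⟩
    exact (zpowers_le (H := stabilizer G ω)).2 a g.2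
  rw [e, Nat.card_eq_fintype_card, h.card] at h1
  have := h.odd
  rw [Nat.odd_iff] at this ⊢
  unfold Nat.ModEq at h1
  unfold fx
  omega

theorem fx_le : fx Ω t ≤ 3 := by
  have m : ∀ i : ZMod p, xp x i ∈ zpowers x := fun i => h.d1.mem_zpowers_iff.2 ⟨i, rfl⟩
  have e : ∀ i : ZMod p, t * xp x i = (xp x i)⁻¹ * t := fun i => by
    rw [xp, ← inv_pow, ← h.inv, conj_pow]; group
  have := Nat.card_le_card_of_injective (fun q : ZMod p × fixedBy Ω t => xp x q.1 • (q.2 : Ω))
    fun ⟨i, a, ha⟩ ⟨j, b, hb⟩ hq => by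
      simp only at hq
      have h1 : xp x (-j + i) • a = b := by
        rw [xp_add h.d1.pow_p, mul_smul, hq, h.d1.xp_neg, inv_smul_smul]
      have h2 : (xp x (-j + i) * xp x (-j + i)) • a = a := by
        have : t • b = b := hb
        rw [← h1, ← mul_smul, e, mul_smul, show t • a = a from ha, inv_smul_eq_iff] at this
        rw [mul_smul, ← this]
      have h3 := eq_one_of_odd_sq (x := xp x (-j + i)) (odd_ord (D := zpowers x)
        (by rw [h.d1.card_zpowers]; exact h.odd) (m _)) (h.semi (mul_mem (m _) (m _)) h2)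
      rw [h3, one_smul] at h1
      rw [h.d1.xp_eq_one_iff, neg_add_eq_zero] at h3
      simp [h1, h3]
  rw [Nat.card_prod, Nat.card_zmod, Nat.card_eq_fintype_card (α := Ω), h.card, mul_comm] at this
  exact Nat.le_of_mul_le_mul_right this hp.out.pos

theorem conj_t {q : G} (hq : q * x * q⁻¹ = x⁻¹) : IsConj t q := by
  obtain ⟨i, hi⟩ := h.d1.mem_zpowers_of_V_eq_bot h.V (g := t⁻¹ * q) (mem_Cx.2 (by
    calc t⁻¹ * q * x = t⁻¹ * (q * x * q⁻¹) * q := by group
      _ = x * (t⁻¹ * q) := by rw [hq, ← h.inv]; group))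
  have := isConj_mul_xp h.d1 h.tN h.tC i
  rwa [← hi, mul_inv_cancel_left] at this

theorem r3 {χ ψ : IrrCharacter G} (h1 : χ ≠ one1 G) (h2 : ψ ≠ one1 G) (h3 : χ ≠ ψ)
    (hπ : pc Ω = (one1 G).1 + χ.1 + ψ.1) (dχ : deg χ + 1 = 2 * p) (dψ : deg ψ = p)
    (vχ : χ.1 x = -1) (vψ : ψ.1 x = 0) : R3 G Ω p := by
  obtain ⟨R, m, s, hR, irr, hc, e⟩ := rank3 hp.out.pos h.card h1 h2 h3 hπ dχ dψ vχ vψ h.dvd_cnt
  refine ⟨by generalize s ^ 2 = q at hc; omega, fun w k hw h1 h8 => ⟨R, hR, irr, ?_⟩⟩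
  have e1 := e w
  rw [h1] at e1
  obtain ⟨c, hc'⟩ := exists_int_of_mul (char_isIntegral (irr_isCharacter ψ.2) w) (m := m + 3 * s)
    (a := p * m + s - cnt R w) (by omega) (by push_cast at e1 ⊢; linear_combination e1)
  obtain ⟨j, hj⟩ := dvd_val_sub_deg 2 ψ hw hc'
  obtain ⟨i, hi⟩ : ∃ i, c = 1 + 2 * i := ⟨p / 2 + j, by rw [dψ] at hj; push_cast at hj; omega⟩
  have e2 : (cnt R w : ℤ) = p * m + s - (m + 3 * s) * (1 + 2 * i) := by
    apply Int.cast_injective (α := ℂ)
    rw [hc', hi] at e1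
    push_cast at e1 ⊢; linear_combination e1
  have e3 := congrArg (Int.cast : ℤ → ZMod 8) e2
  have p8 : (p : ZMod 8) = 1 := by rw [← ZMod.natCast_mod, h8, Nat.cast_one]
  rcases hc with ⟨rfl, hc⟩ | ⟨rfl, hc⟩ <;> have e4 := congrArg (Int.cast : ℤ → ZMod 8) hc <;>
    push_cast at e3 e4 <;> rw [p8] at e3 e4
  · exact Or.inr (by rw [e3, ← (z8 s i).1 (by rw [← e4]; ring)]; ring)
  · exact Or.inl (by rw [e3, ← (z8 s i).2 (by rw [← e4]; ring)]; ring)

theorem chars [IsSimpleGroup G] (hG : ¬ IsMulCommutative G) :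
    (∀ u, orderOf u = 2 → IsConj t u) ∧ ∃ d a : ℤ,
      ((Cen1 t).index * (d - a) ^ 2 = p * Nat.card (Cen1 t) * (d * (d - 1))) ∧
      ((d = p - 1 ∧ a = 0) ∨ (d = 2 * p - 1 ∧ a = 1 ∧ R3 G Ω p) ∨
        (d = 3 * p - 1 ∧ a + 1 = fx Ω t)) := by
  have hP := commutator_eq_top_of_simple hG
  have : Nonempty Ω := Fintype.card_pos_iff.1 (by have := h.gt; have := h.card; omega)
  obtain ⟨b⟩ := h.d1.nonempty_block
  obtain ⟨c, hc, hc', -⟩ := blk_enum b (n := 1) h.H
  obtain ⟨χ, n1, hχ, eB⟩ : ∃ χ, χ ≠ one1 G ∧ χ ∈ b.B ∧ b.B = {one1 G, χ} :=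
    ⟨c 0, (hc 0).1, (hc 0).2, Finset.ext fun φ => ⟨fun a => by
      by_cases e : φ = one1 G
      · simp [e]
      · obtain ⟨j, rfl⟩ := hc' φ a e
        simp [Subsingleton.elim j 0], fun a => by
      rcases Finset.mem_insert.1 a with rfl | a
      · exact b.one_mem
      · rw [Finset.mem_singleton.1 a]; exact (hc 0).2⟩⟩
  have sB : ∀ {A : Type} [AddCommMonoid A] (f : IrrCharacter G → A),
      ∑ φ ∈ b.B, f φ = f (one1 G) + f χ := fun f => by rw [eB, Finset.sum_pair n1.symm]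
  have np : ∀ {u : G}, orderOf u = 2 → ¬ p ∣ orderOf u := fun hu e => by
    rw [hu] at e
    have := Nat.le_of_dvd two_pos e
    have := h.gt
    omega
  have reg : ∀ k {u : G}, orderOf u = 2 →
      1 + b.sgn χ * χ.1 u + b.sgn0 * (b.ex k).1 u = 0 := fun k u hu => by
    have := b.sum_reg k (np hu)
    rwa [sB, b.sgn_one, Int.cast_one, one1_apply, mul_one] at this
  have dg := b.sum_deg 1
  rw [sB, b.sgn_one, deg_one1] at dg
  obtain ⟨m, hm, hπ⟩ := char_exists_coeff (pc_char (G := G) (Ω := Ω))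
  have m1 : m (one1 G) = 1 := by exact_mod_cast (hm (one1 G)).symm.trans inner_pc_one
  have mi : ∀ k, 1 + b.sgn χ * m χ + b.sgn0 * m (b.ex k) = 0 := fun k => by
    have := b.sum_inner (char_isClassFunction (pc_char (G := G) (Ω := Ω))) (c := 0)
      (fun i hi v hv => by
        rw [h.V, mem_bot] at hv
        rw [hv, mul_one, pc, h.fx_xp hi, Nat.cast_zero]) k
    rw [sB, b.sgn_one, hm, hm, hm, m1] at this
    exact_mod_cast this
  have π1 : pc Ω (1 : G) = (3 * p : ℕ) := by rw [pc, fx_one, h.card]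
  have d2 := two_le_deg hP n1
  have f1 := deg_pos (b.ex 1)
  obtain ⟨n, hn⟩ := b.deg_modEq hχ
  obtain ⟨a, ha, ha4⟩ := inv_val hP χ (z := t) (by rw [sq, ii h.t2])
  have hE := b.card_E_mul
  have p3 := h.gt
  have k3 := h.fx_le
  obtain ⟨j, hj⟩ := h.odd
  rw [h.H] at hE
  rcases b.sgn_eq χ hχ with ε | ε
  · exfalso
    have δ : b.sgn0 = -1 := b.sgn0_eq.resolve_left fun e => by rw [ε, e] at dg; omega
    simp only [ε, δ] at dg mi hn reg
    have nE : one1 G ∉ b.E := Finset.disjoint_left.1 b.disjoint_B_E b.one_mem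
    have mS : ∀ φ ∈ insert (one1 G) b.E, m φ ≠ 0 := fun φ a => by
      rcases Finset.mem_insert.1 a with rfl | a
      · omega
      · obtain ⟨k, rfl⟩ := b.mem_E.1 a
        have := mi k
        omega
    have sS : ∑ φ ∈ insert (one1 G) b.E, deg φ = 1 + b.E.card * deg (b.ex 1) := by
      rw [Finset.sum_insert nE, deg_one1, b.sum_E_reg 1 _ fun l => b.deg_ex l 1, smul_eq_mul]
    have h1 := sum_deg_le pc_char π1 _ fun φ a => by rw [hm]; exact_mod_cast mS φ a
    rw [sS] at h1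
    have n2 : 2 ≤ n := by
      by_contra e
      have : n ≤ 1 := by omega
      interval_cases n <;> omega
    have h2 : (p : ℤ) * 2 ≤ p * n := by gcongr; exact_mod_cast n2
    have h3 : p + 2 ≤ deg (b.ex 1) := by omega
    obtain rfl : j = b.E.card := by omega
    have h4 := Nat.mul_le_mul_left b.E.card h3
    have h5 : b.E.card = 2 := by nlinarith
    have h6 : deg (b.ex 1) = 7 := by rw [h5] at h1; omega
    have h7 := congrFun (eq_sum_of_coeff hπ _ mS (by rw [sS, π1, h5, h6, hj, h5]; norm_num)) t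
    rw [Finset.sum_apply, Finset.sum_insert nE, b.sum_E_reg 1 (fun φ => φ.1 t)
      fun l => b.ex_apply_reg l 1 (np h.t2), h5, one1_apply] at h7
    have h8 : (fx Ω t : ℤ) = 3 + 2 * a := by
      apply Int.cast_injective (α := ℂ)
      have := reg 1 h.t2
      rw [ha] at this
      push_cast at this ⊢
      rw [pc, nsmul_eq_mul] at h7
      push_cast at h7
      linear_combination h7 - 2 * this
    omega
  have δ : b.sgn0 = 1 := b.sgn0_eq.resolve_right fun e => by rw [ε, e] at dg; omega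
  simp only [ε, δ] at dg mi hn reg
  have vx : ∀ i : ZMod p, i ≠ 0 → χ.1 (xp x i) = ((-1 : ℤ) : ℂ) := fun i hi => by
    rw [b.apply_B' hχ hi, ε]
  have key : ∀ {u : G} {a : ℤ}, orderOf u = 2 → χ.1 u = a → IsConj t u ∧
      (Cen1 u).index * (deg χ - a) ^ 2 = p * Nat.card (Cen1 u) * (deg χ * (deg χ - 1) : ℤ) := by
    intro u a hu ha
    have : Subsingleton h.d1.V := by rw [h.V]; infer_instance
    have e1 := b.sum_card_pairs 1 (np hu) (np hu)
    have e2 : (b.ex 1).1 u = a - 1 := by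
      have := reg 1 hu
      rw [ha] at this
      push_cast at this
      linear_combination this
    have e3 : (deg (b.ex 1) : ℂ) = deg χ - 1 := by
      exact_mod_cast (by omega : (deg (b.ex 1) : ℤ) = deg χ - 1)
    have e4 : (Nat.card G : ℂ) = Nat.card (Cen1 u) * (Cx u).index := by
      exact_mod_cast (Cen1 u).card_mul_index.symm
    have h4 : ((Cx u).index : ℂ) ≠ 0 := by exact_mod_cast (index_Cx_pos u).ne'
    have h5 : (Nat.card (Cen1 u) : ℂ) ≠ 0 := by exact_mod_cast Nat.card_pos.ne'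
    have h6 : (deg χ : ℂ) ≠ 0 := by exact_mod_cast (by omega : deg χ ≠ 0)
    have h7 : (deg χ : ℂ) - 1 ≠ 0 := by rw [← e3]; exact_mod_cast f1.ne'
    rw [Fintype.sum_subsingleton _ 1, sB, b.sgn_one, ε, δ, ha, e2, e3, deg_one1, one1_apply, e4,
      Nat.card_unique (α := h.d1.V), OneMemClass.coe_one, mul_one x] at e1
    have e5 : (npairs u u x : ℤ) * Nat.card (Cen1 u) * (deg χ * (deg χ - 1)) =
        (Cen1 u).index * (deg χ - a) ^ 2 := by
      apply Int.cast_injective (α := ℂ)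
      push_cast at e1 ⊢
      rw [npairs, e1]
      field_simp
      ring
    have h8 := irr_int_abs_lt hG n1 (ine hu) ha
    have h9 : npairs u u x ≠ 0 := fun e => by
      rw [e, Nat.cast_zero, zero_mul, zero_mul, eq_comm, mul_eq_zero, sq_eq_zero_iff] at e5
      have := index_Cx_pos u
      have := le_abs_self a
      rcases e5 with e5 | e5
      · exact index_ne_zero_of_finite (H := Cen1 u) (by exact_mod_cast e5)
      · omega
    refine ⟨?_, by
      rw [← e5, npairs, (h.d1.card_pairs_involution h.V (by omega) (ii hu)).resolve_left h9]⟩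
    obtain ⟨⟨q, r⟩, q1, q2, q3⟩ := (Nat.card_ne_zero.1 h9).1
    have o1 := ii ((H9.orderOf_of_isConj q1).trans hu)
    have o2 := ii ((H9.orderOf_of_isConj q2).trans hu)
    refine (h.conj_t ?_).trans q1.symm
    simp only at q3
    rw [← q3, mul_inv_rev, inv_eq_of_mul_eq_one_right o1, inv_eq_of_mul_eq_one_right o2,
      ← mul_assoc, o1, one_mul]
  refine ⟨fun u hu => ?_, deg χ, a, (key h.t2 ha).2, ?_⟩
  · obtain ⟨a, ha, -⟩ := inv_val hP χ (z := u) (by rw [sq, ii hu])
    exact (key hu ha).1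
  have h1 := abs_le_of_coset h.d1 χ vx hn h.tN h.tC ha
  have tot : ∑ φ, m φ * deg φ = 3 * p := by
    have := congrFun hπ 1
    rw [π1, Finset.sum_apply] at this
    simp only [Pi.smul_apply, deg_eq, smul_eq_mul] at this
    exact_mod_cast this.symm
  rw [← Finset.add_sum_erase _ _ (Finset.mem_univ (one1 G)), ← Finset.add_sum_erase _ _
    (Finset.mem_erase.2 ⟨n1, Finset.mem_univ χ⟩), m1, deg_one1] at tot
  have mχ : 1 ≤ m χ := by have := mi 1; omega
  have h2 := Nat.mul_le_mul_right (deg χ) mχ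
  have n2 : n ≤ 2 := by
    by_contra e
    have : (p : ℤ) * 3 ≤ p * n := by gcongr; omega
    omega
  rw [Nat.abs_cast, abs_le] at h1
  interval_cases n
  · exact Or.inl ⟨by omega, by omega⟩
  · refine Or.inr (Or.inl ⟨by omega, by omega, ?_⟩)
    have h3 : m χ = 1 := by
      by_contra e
      have := Nat.mul_le_mul_right (deg χ) (show 2 ≤ m χ by omega)
      omega
    rw [h3] at tot mi
    obtain ⟨ψ, h4, h5⟩ := Finset.exists_ne_zero_of_sum_ne_zero (s := (Finset.univ.erase
      (one1 G)).erase χ) (f := fun φ => m φ * deg φ) (by omega)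
    have h6 := Finset.single_le_sum (f := fun φ => m φ * deg φ) (fun _ _ => Nat.zero_le _) h4
    simp only [Finset.mem_erase, Finset.mem_univ, and_true] at h4
    have h7 : ψ.1 x = 0 := by
      have := b.apply_other h.V (χ := ψ) (by rw [eB]; simp [h4.1, h4.2]) (fun k e => by
        have := mi k
        rw [← e] at this
        exact h5 (by rw [show m ψ = 0 by omega, zero_mul])) (i := 1) one_ne_zero
      rwa [xp_one] at this
    have h8 := Nat.le_of_dvd (deg_pos ψ) (dvd_deg_of_zero ψ h.d1.pow_p h7)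
    have h9 := Nat.mul_le_mul_right (deg ψ) (Nat.pos_of_ne_zero (left_ne_zero_of_mul h5))
    have h10 : deg ψ = p := by omega
    have h11 := eq_sum_of_coeff hπ {one1 G, χ, ψ} (fun φ a => by
      simp only [Finset.mem_insert, Finset.mem_singleton] at a
      rcases a with rfl | rfl | rfl
      exacts [by omega, by omega, left_ne_zero_of_mul h5]) (by
        rw [π1, Finset.sum_insert (by simp [n1.symm, h4.2.symm]), Finset.sum_pair h4.1.symm,
          deg_one1, h10]; congr 1; omega)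
    rw [Finset.sum_insert (by simp [n1.symm, h4.2.symm]), Finset.sum_pair h4.1.symm,
      ← add_assoc] at h11
    exact h.r3 n1 h4.2 h4.1.symm h11 (by omega) h10 (by simpa [xp_one] using vx 1 one_ne_zero) h7
  · refine Or.inr (Or.inr ⟨by omega, ?_⟩)
    have h3 := congrFun (eq_sum_of_coeff hπ {one1 G, χ} (fun φ a => by
      simp only [Finset.mem_insert, Finset.mem_singleton] at a
      rcases a with rfl | rfl <;> omega) (by
        rw [π1, Finset.sum_pair n1.symm, deg_one1]; congr 1; omega)) t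
    rw [Finset.sum_pair n1.symm, Pi.add_apply, ha, one1_apply, pc] at h3
    exact_mod_cast (add_comm _ _).trans h3.symm

end Hy

end N3
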